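import Cfsg.Agent.H691.AN.Defs
import Cfsg.Agent.H691.PDvd
import Cfsg.Agent.H597.Degrees

/-!
# S4766 B5: a quotient of prime power order of a group with the degrees of `A_n` is abelian (helper456)
-/

set_option autoImplicit false

namespace Cfsg.Agent.H456.AN

open Cfsg Cfsg.Agent.Characters Cfsg.Agent.Characters.Core Cfsg.Agent.H691.AN

universe u

/-- the statement of A3 -/
def A3 : Prop := ∀ {n : ℕ}, 20 ≤ n → ∀ {d : ℕ}, d ∈ D n →
    d = 1 ∨ d = n - 1 ∨ 2 * d = n * (n - 3) ∨ 2 * d = (n - 1) * (n - 2) ∨ 6 * d = n * (n - 1) * (n - 5) ∨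
      3 * d = n * (n - 2) * (n - 4) ∨ 6 * d = (n - 1) * (n - 2) * (n - 3) ∨ (n - 1) ^ 3 < 2 * d

/-- the statement of A4 -/
def A4 : Prop := ∀ {n : ℕ}, 7 ≤ n → n - 1 ∈ D n ∧ n * (n - 3) / 2 ∈ D n ∧ (n - 1) * (n - 2) / 2 ∈ D n

/-- the statement of A5 -/
def A5 : Prop := ∀ {n : ℕ}, 10 ≤ n → ∀ {p k : ℕ}, p.Prime → 0 < k → p ^ k ∈ D n → p ^ k = n - 1

/-- A prime `q` with `q ^ b = n - 1` does not divide `n (n - 3) / 2`. -/
theorem not_dvd_half {n q b : ℕ} (hn : 20 ≤ n) (hq : q.Prime) (hb : q ^ b = n - 1) :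
    ¬ q ∣ n * (n - 3) / 2 := by
  have hb0 : b ≠ 0 := by
    rintro rfl
    rw [pow_zero] at hb
    omega
  obtain ⟨k, rfl⟩ : ∃ k, n = k + 20 := ⟨n - 20, by omega⟩
  have h1 : k + 20 - 1 = k + 19 := by omega
  have h3 : k + 20 - 3 = k + 17 := by omega
  rw [h1] at hb
  rw [h3]
  have hqm : q ∣ k + 19 := hb ▸ dvd_pow_self q hb0
  intro hd
  have h2 : 2 ∣ (k + 20) * (k + 17) := by
    rcases Nat.even_or_odd k with h | h
    · exact dvd_mul_of_dvd_left (by obtain ⟨c, rfl⟩ := h; exact ⟨c + 10, by ring⟩) _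
    · exact dvd_mul_of_dvd_right (by obtain ⟨c, rfl⟩ := h; exact ⟨c + 9, by ring⟩) _
  obtain ⟨u, hu⟩ := h2
  rw [hu, Nat.mul_div_cancel_left _ (by norm_num)] at hd
  -- `2 u = (m + 1) (m - 2)`, so `q ∣ 2`
  have hq2 : q ∣ 2 := by
    have h4 : q ∣ (k + 20) * (k + 17) := hu ▸ dvd_mul_of_dvd_right hd 2
    have h5 : (k + 20) * (k + 17) + 2 = (k + 19) * (k + 18) := by ring
    have h6 : q ∣ (k + 20) * (k + 17) + 2 := h5 ▸ dvd_mul_of_dvd_left hqm _
    exact (Nat.dvd_add_right h4).1 h6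
  have hqe : q = 2 := (Nat.prime_dvd_prime_iff_eq hq Nat.prime_two).1 hq2
  subst hqe
  have hb2 : 2 ≤ b := by
    by_contra h
    have : b = 1 := by omega
    subst this
    omega
  obtain ⟨c, rfl⟩ : ∃ c, b = c + 2 := ⟨b - 2, by omega⟩
  have h7 : 4 * 2 ^ c = k + 19 := by rw [← hb]; ring
  -- `k + 19 = 4 t`, `2 u = (4 t + 1) (4 t - 2)`
  obtain ⟨t, ht⟩ : ∃ t, t = 2 ^ c := ⟨_, rfl⟩
  rw [← ht] at h7
  have ht1 : 1 ≤ t := by
    rw [ht]
    exact Nat.one_le_two_pow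
  obtain ⟨s, rfl⟩ : ∃ s, t = s + 1 := ⟨t - 1, by omega⟩
  have h8 : k + 20 = 4 * s + 5 := by omega
  have h9 : k + 17 = 4 * s + 2 := by omega
  rw [h8, h9] at hu
  obtain ⟨v, rfl⟩ := hd
  have h10 : 2 * ((4 * s + 5) * (2 * s + 1)) = 2 * (2 * v) := by rw [← hu]; ring
  have h11 : (4 * s + 5) * (2 * s + 1) = 2 * v := Nat.eq_of_mul_eq_mul_left (by norm_num) h10
  have h12 : (4 * s + 5) * (2 * s + 1) = 2 * (4 * s * s + 7 * s + 2) + 1 := by ring
  omega

/-- `(n - 1) · n (n - 3) / 2` is not a degree of `A_n`. -/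
theorem prod_not_mem (a3 : A3) {n : ℕ} (hn : 20 ≤ n) : ¬ (n - 1) * (n * (n - 3) / 2) ∈ D n := by
  intro h
  have h' := a3 hn h
  obtain ⟨k, rfl⟩ : ∃ k, n = k + 20 := ⟨n - 20, by omega⟩
  have e1 : k + 20 - 1 = k + 19 := by omega
  have e2 : k + 20 - 2 = k + 18 := by omega
  have e3 : k + 20 - 3 = k + 17 := by omega
  have e4 : k + 20 - 4 = k + 16 := by omega
  have e5 : k + 20 - 5 = k + 15 := by omega
  rw [e1, e2, e3, e4, e5] at h'
  have h2 : 2 ∣ (k + 20) * (k + 17) := by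
    rcases Nat.even_or_odd k with h | h
    · exact dvd_mul_of_dvd_left (by obtain ⟨c, rfl⟩ := h; exact ⟨c + 10, by ring⟩) _
    · exact dvd_mul_of_dvd_right (by obtain ⟨c, rfl⟩ := h; exact ⟨c + 9, by ring⟩) _
  obtain ⟨u, hu⟩ := h2
  rw [hu, Nat.mul_div_cancel_left _ (by norm_num)] at h'
  have hk : 0 ≤ k := Nat.zero_le k
  have hkk : 0 ≤ k * k := Nat.zero_le _
  have hu' : 2 * u = k * k + 37 * k + 340 := by rw [← hu]; ring
  have hm : 2 * ((k + 19) * u) = (k + 19) * (k * k + 37 * k + 340) := by rw [← hu']; ring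
  have hkkk : 0 ≤ k * k * k := Nat.zero_le _
  rcases h' with h | h | h | h | h | h | h | h <;> nlinarith

/-- **S4766, B5.** -/
theorem b5_pquot (a3 : A3) (a4 : A4) (a5 : A5) {n : ℕ} (hn : 20 ≤ n) {G : Type u} [Group G] [Finite G]
    (h : charDegrees G = D n) (K : Subgroup G) [K.Normal] {q : ℕ} (hq : q.Prime) (hK : IsPGroup q (G ⧸ K)) :
    commutator G ≤ K := by
  classical
  by_contra hcon
  have := Fintype.ofFinite G
  have := Fact.mk hq
  have hna : ¬ IsMulCommutative (G ⧸ K) := by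
    intro hc
    apply hcon
    rw [commutator_def, Subgroup.commutator_le]
    intro a _ b _
    rw [← QuotientGroup.ker_mk' K, MonoidHom.mem_ker, map_commutatorElement, commutatorElement_eq_one_iff_mul_comm]
    exact hc.is_comm.comm _ _
  obtain ⟨d, hd, hd1⟩ := Cfsg.Agent.H691.PDvd.exists_nonlinear hna
  obtain ⟨j, hj⟩ := (IsPGroup.iff_card.1 hK : ∃ j, Nat.card (G ⧸ K) = q ^ j)
  have hdc : d ∣ q ^ j := hj ▸ Cfsg.Agent.H681.DegBasic.dvd_card hd
  obtain ⟨b, -, rfl⟩ := (Nat.dvd_prime_pow hq).1 hdc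
  have hb : 0 < b := by
    rcases Nat.eq_zero_or_pos b with rfl | hb
    · exact (hd1 (pow_zero q)).elim
    · exact hb
  have hdG : q ^ b ∈ charDegrees G :=
    Cfsg.Agent.H681.DegBasic.charDegrees_comp (QuotientGroup.mk' K) (QuotientGroup.mk'_surjective K) hd
  have hqb : q ^ b = n - 1 := a5 (by omega) hq hb (h ▸ hdG)
  -- the degree `u`
  have hu : n * (n - 3) / 2 ∈ charDegrees G := by
    rw [h]
    exact (a4 (by omega : 7 ≤ n)).2.1
  obtain ⟨χ, hχ, hχ1⟩ := Cfsg.Agent.H681.DegBasic.mem_charDegrees.1 hu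
  have hcd : charDegree χ = n * (n - 3) / 2 := Cfsg.Agent.Blocks.Basic.charDegree_of_eq hχ1
  have hcop : Nat.Coprime K.index (charDegree χ) := by
    rw [Subgroup.index_eq_card, hj, hcd]
    exact Nat.Coprime.pow_left j ((Nat.Prime.coprime_iff_not_dvd hq).2 (not_dvd_half hn hq hqb))
  have hχK : IsIrrCharacter K (fun k : K => χ k) := Cfsg.Agent.H597.Degrees.isIrr_restrict_of_coprime K hχ hcop
  have hmem := Cfsg.Agent.H681.DegBasic.gallagher (QuotientGroup.mk' K) (QuotientGroup.mk'_surjective K) K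
    (fun k hk => (QuotientGroup.eq_one_iff k).2 hk) hχ hχK hχ1 hd
  rw [hqb, h] at hmem
  exact prod_not_mem a3 hn hmem

end Cfsg.Agent.H456.AN
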